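import Cfsg.Agent.H219.L34.Orb

/-!
# S5917, Steinberg branch: orbits of elements of order 5 and 7 on flags, points, lines (helper219)
-/

set_option autoImplicit false
set_option linter.style.haveILetI false
set_option linter.unusedSimpArgs false

namespace Cfsg.Agent.H219.L34

open MulAction Cfsg.Agent.H482.LF Cfsg.Agent.H691.L34

variable {F : Type} [Field F]

theorem two_eq [Fintype F] (hF : Fintype.card F = 4) : ∀ a : F, a + a = 0 := by
  intro a
  have h : ((Fintype.card F : ℕ) : F) = 0 := Nat.cast_card_eq_zero F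
  rw [hF] at h
  have h2 : (2 : F) * 2 = 0 := by rw [← h]; norm_num
  have h3 : (2 : F) = 0 := by
    rcases mul_eq_zero.1 h2 with h | h <;> exact h
  rw [← two_mul, h3, zero_mul]

theorem cube_eq [Fintype F] (hF : Fintype.card F = 4) : ∀ a : F, a ≠ 0 → a ^ 3 = 1 := by
  intro a ha
  have := FiniteField.pow_card_sub_one_eq_one a ha
  rwa [hF] at this

theorem det3 (a : G3 F) : a.1 0 0 * a.1 1 1 * a.1 2 2 - a.1 0 0 * a.1 1 2 * a.1 2 1
    - a.1 0 1 * a.1 1 0 * a.1 2 2 + a.1 0 1 * a.1 1 2 * a.1 2 0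
    + a.1 0 2 * a.1 1 0 * a.1 2 1 - a.1 0 2 * a.1 1 1 * a.1 2 0 = 1 := by
  have := a.2
  rwa [Matrix.det_fin_three] at this

/-- elements of the Borel subgroup satisfy `a ^ 12 = 1` -/
theorem pow12 [Fintype F] (hF : Fintype.card F = 4) (a : G3 F) (ha : a ∈ BB F) : a ^ 12 = 1 := by
  have hd := det3 a
  obtain ⟨h1, h2, h3⟩ := ha
  simp only [h1, h2, h3, mul_zero, zero_mul, sub_zero, add_zero] at hd
  have e0 : a.1 0 0 ≠ 0 := fun h => by rw [h] at hd; simp at hd
  have e1 : a.1 1 1 ≠ 0 := fun h => by rw [h] at hd; simp at hd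
  have e2 : a.1 2 2 ≠ 0 := fun h => by rw [h] at hd; simp at hd
  -- the cube is unipotent
  have c10 : (a * a * a).1 1 0 = 0 := by simp [mul3, h1, h2, h3]
  have c20 : (a * a * a).1 2 0 = 0 := by simp [mul3, h1, h2, h3]
  have c21 : (a * a * a).1 2 1 = 0 := by simp [mul3, h1, h2, h3]
  have c00 : (a * a * a).1 0 0 = 1 := by
    have h := cube_eq hF _ e0
    simp only [mul3, h1, h2, h3]
    linear_combination h
  have c11 : (a * a * a).1 1 1 = 1 := by
    have h := cube_eq hF _ e1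
    simp only [mul3, h1, h2, h3]
    linear_combination h
  have c22 : (a * a * a).1 2 2 = 1 := by
    have h := cube_eq hF _ e2
    simp only [mul3, h1, h2, h3]
    linear_combination h
  have ht := two_eq hF
  set u := a * a * a with hu
  have v : (u * u) * (u * u) = 1 := by
    apply Matrix.SpecialLinearGroup.ext
    intro i j
    fin_cases i <;> fin_cases j <;>
      simp [mul3, c00, c11, c22, c10, c20, c21, ht]
  have : a ^ 12 = (u * u) * (u * u) := by
    rw [hu]; simp only [pow_succ, pow_zero, one_mul, mul_assoc]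
  rw [this, v]

/-- no fixed flag for an element of order prime to 12 -/
theorem fix_BB [Fintype F] (hF : Fintype.card F = 4) (g : G3 F) (p : ℕ) (hg : orderOf g = p)
    (hp : ¬ p ∣ 12) (x : G3 F) : x⁻¹ * g * x ∉ BB F := by
  intro h
  have h2 := pow12 hF _ h
  have h3 : g ^ 12 = 1 := by
    have e : (x⁻¹ * g * x) ^ 12 = x⁻¹ * g ^ 12 * x := by
      have := conj_pow (i := 12) (a := x⁻¹) (b := g)
      rwa [inv_inv] at this
    rw [e] at h2
    have := congrArg (fun y => x * y * x⁻¹) h2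
    simpa [mul_assoc] using this
  exact hp (hg ▸ orderOf_dvd_of_pow_eq_one h3)

theorem fixed_iff (H : Subgroup (G3 F)) (g x : G3 F) :
    ((x : G3 F ⧸ H) ∈ fixedBy (G3 F ⧸ H) g) ↔ x⁻¹ * g * x ∈ H := by
  rw [mem_fixedBy]
  have : g • (x : G3 F ⧸ H) = ((g * x : G3 F) : G3 F ⧸ H) := rfl
  rw [this, eq_comm, QuotientGroup.eq, mul_assoc]

/-- a matrix of `PP` with second column a given vector -/
theorem exists_col (s t : F) (h : ¬ (s = 0 ∧ t = 0)) : ∃ h : G3 F, h.1 0 0 = 1 ∧ h.1 1 0 = 0 ∧ h.1 2 0 = 0 ∧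
    h.1 0 1 = 0 ∧ h.1 0 2 = 0 ∧ h.1 1 1 = s ∧ h.1 2 1 = t := by
  have : ∃ u v : F, s * v - u * t = 1 := by
    by_cases hs : s = 0
    · have ht : t ≠ 0 := fun ht => h ⟨hs, ht⟩
      exact ⟨-t⁻¹, 0, by rw [hs]; field_simp; ring⟩
    · exact ⟨0, s⁻¹, by field_simp; ring⟩
  obtain ⟨u, v, huv⟩ := this
  refine ⟨⟨!![1, 0, 0; 0, s, u; 0, t, v], ?_⟩, rfl, rfl, rfl, rfl, rfl, rfl, rfl⟩
  rw [Matrix.det_fin_three]
  show 1 * s * v - 1 * u * t - 0 * 0 * v + 0 * u * 0 + 0 * 0 * t - 0 * s * 0 = 1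
  linear_combination huv

/-- two fixed points give a fixed flag -/
theorem two_points (g c : G3 F) (hg : g ∈ PP F) (hc : c ∉ PP F) (hgc : c⁻¹ * g * c ∈ PP F) :
    ∃ x : G3 F, x⁻¹ * g * x ∈ BB F := by
  obtain ⟨g1, g2⟩ := hg
  have hc' : ¬ (c.1 1 0 = 0 ∧ c.1 2 0 = 0) := fun h => hc h
  obtain ⟨h, h00, h10, h20, h01, h02, h11, h21⟩ := exists_col _ _ hc'
  refine ⟨h, ?_⟩
  set k := c⁻¹ * g * c with hk
  have hgc2 : g * c = c * k := by rw [hk]; group
  obtain ⟨k1, k2⟩ := hgc
  have e1 : g.1 1 1 * c.1 1 0 + g.1 1 2 * c.1 2 0 = c.1 1 0 * k.1 0 0 := by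
    have := congrArg (fun m : G3 F => m.1 1 0) hgc2
    simp only [mul3, g1, g2, k1, k2] at this
    linear_combination this
  have e2 : g.1 2 1 * c.1 1 0 + g.1 2 2 * c.1 2 0 = c.1 2 0 * k.1 0 0 := by
    have := congrArg (fun m : G3 F => m.1 2 0) hgc2
    simp only [mul3, g1, g2, k1, k2] at this
    linear_combination this
  have hi : ∀ i j, (h⁻¹ : G3 F).1 i j = (h.1).adjugate i j := fun i j => rfl
  refine ⟨?_, ?_, ?_⟩
  · simp only [mul3, hi, Matrix.adjugate_fin_three, Matrix.of_apply, Matrix.cons_val', Matrix.cons_val_zero,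
      Matrix.cons_val_one, Matrix.cons_val, g1, g2, h00, h10, h20, h01, h02, h11, h21]
    ring
  · simp only [mul3, hi, Matrix.adjugate_fin_three, Matrix.of_apply, Matrix.cons_val', Matrix.cons_val_zero,
      Matrix.cons_val_one, Matrix.cons_val, g1, g2, h00, h10, h20, h01, h02, h11, h21]
    ring
  · simp only [mul3, hi, Matrix.adjugate_fin_three, Matrix.of_apply, Matrix.cons_val', Matrix.cons_val_zero,
      Matrix.cons_val_one, Matrix.cons_val, g1, g2, h00, h10, h20, h01, h02, h11, h21]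
    linear_combination (-c.1 2 0) * e1 + c.1 1 0 * e2

/-- a matrix of `LL` whose inverse has second row a given row -/
theorem exists_row (s t : F) (h : ¬ (s = 0 ∧ t = 0)) : ∃ h : G3 F, h.1 2 2 = 1 ∧ h.1 2 0 = 0 ∧ h.1 2 1 = 0 ∧
    h.1 0 2 = 0 ∧ h.1 1 2 = 0 ∧ h.1 0 0 = t ∧ h.1 1 0 = - s := by
  have : ∃ u v : F, t * v + s * u = 1 := by
    by_cases hs : s = 0
    · have ht : t ≠ 0 := fun ht => h ⟨hs, ht⟩
      exact ⟨0, t⁻¹, by rw [hs]; field_simp; ring⟩
    · exact ⟨s⁻¹, 0, by field_simp; ring⟩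
  obtain ⟨u, v, huv⟩ := this
  refine ⟨⟨!![t, u, 0; -s, v, 0; 0, 0, 1], ?_⟩, rfl, rfl, rfl, rfl, rfl, rfl, rfl⟩
  rw [Matrix.det_fin_three]
  show t * v * 1 - t * 0 * 0 - u * (-s) * 1 + u * 0 * 0 + 0 * (-s) * 0 - 0 * v * 0 = 1
  linear_combination huv

/-- two fixed lines give a fixed flag -/
theorem two_lines (g c : G3 F) (hg : g ∈ LL F) (hc : c ∉ LL F) (hgc : c * g * c⁻¹ ∈ LL F) :
    ∃ x : G3 F, x⁻¹ * g * x ∈ BB F := by
  obtain ⟨g1, g2⟩ := hg
  have hc' : ¬ (c.1 2 0 = 0 ∧ c.1 2 1 = 0) := fun h => hc h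
  obtain ⟨h, h22, h20, h21, h02, h12, h00, h10⟩ := exists_row _ _ hc'
  refine ⟨h, ?_⟩
  set k := c * g * c⁻¹ with hk
  have hgc2 : c * g = k * c := by rw [hk]; group
  obtain ⟨k1, k2⟩ := hgc
  have e1 : c.1 2 0 * g.1 0 0 + c.1 2 1 * g.1 1 0 = c.1 2 0 * k.1 2 2 := by
    have := congrArg (fun m : G3 F => m.1 2 0) hgc2
    simp only [mul3, g1, g2, k1, k2] at this
    linear_combination this
  have e2 : c.1 2 0 * g.1 0 1 + c.1 2 1 * g.1 1 1 = c.1 2 1 * k.1 2 2 := by
    have := congrArg (fun m : G3 F => m.1 2 1) hgc2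
    simp only [mul3, g1, g2, k1, k2] at this
    linear_combination this
  have hi : ∀ i j, (h⁻¹ : G3 F).1 i j = (h.1).adjugate i j := fun i j => rfl
  refine ⟨?_, ?_, ?_⟩
  · simp only [mul3, hi, Matrix.adjugate_fin_three, Matrix.of_apply, Matrix.cons_val', Matrix.cons_val_zero,
      Matrix.cons_val_one, Matrix.cons_val, g1, g2, h22, h20, h21, h02, h12, h00, h10]
    linear_combination c.1 2 1 * e1 - c.1 2 0 * e2
  · simp only [mul3, hi, Matrix.adjugate_fin_three, Matrix.of_apply, Matrix.cons_val', Matrix.cons_val_zero,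
      Matrix.cons_val_one, Matrix.cons_val, g1, g2, h22, h20, h21, h02, h12, h00, h10]
    ring
  · simp only [mul3, hi, Matrix.adjugate_fin_three, Matrix.of_apply, Matrix.cons_val', Matrix.cons_val_zero,
      Matrix.cons_val_one, Matrix.cons_val, g1, g2, h22, h20, h21, h02, h12, h00, h10]
    ring

/-- at most one fixed point -/
theorem fix_PP_le [Fintype F] (hF : Fintype.card F = 4) (g : G3 F) (p : ℕ) (hg : orderOf g = p)
    (hp : ¬ p ∣ 12) : Nat.card (fixedBy (G3 F ⧸ PP F) g) ≤ 1 := by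
  haveI : Subsingleton (fixedBy (G3 F ⧸ PP F) g) := by
    constructor
    rintro ⟨a, ha⟩ ⟨b, hb⟩
    induction a using QuotientGroup.induction_on with
    | H x =>
      induction b using QuotientGroup.induction_on with
      | H y =>
        rw [fixed_iff] at ha hb
        apply Subtype.ext
        show (x : G3 F ⧸ PP F) = y
        rw [QuotientGroup.eq]
        by_contra hc
        obtain ⟨z, hz⟩ := two_points (x⁻¹ * g * x) (x⁻¹ * y) ha hc (by
          have : (x⁻¹ * y)⁻¹ * (x⁻¹ * g * x) * (x⁻¹ * y) = y⁻¹ * g * y := by group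
          rwa [this])
        apply fix_BB hF g p hg hp (x * z)
        have : (x * z)⁻¹ * g * (x * z) = z⁻¹ * (x⁻¹ * g * x) * z := by group
        rwa [this]
  exact Finite.card_le_one_iff_subsingleton.2 this

/-- at most one fixed line -/
theorem fix_LL_le [Fintype F] (hF : Fintype.card F = 4) (g : G3 F) (p : ℕ) (hg : orderOf g = p)
    (hp : ¬ p ∣ 12) : Nat.card (fixedBy (G3 F ⧸ LL F) g) ≤ 1 := by
  haveI : Subsingleton (fixedBy (G3 F ⧸ LL F) g) := by
    constructor
    rintro ⟨a, ha⟩ ⟨b, hb⟩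
    induction a using QuotientGroup.induction_on with
    | H x =>
      induction b using QuotientGroup.induction_on with
      | H y =>
        rw [fixed_iff] at ha hb
        apply Subtype.ext
        show (x : G3 F ⧸ LL F) = y
        rw [QuotientGroup.eq]
        by_contra hc
        have hc2 : y⁻¹ * x ∉ LL F := fun h => hc (by
          have := (LL F).inv_mem h
          rwa [mul_inv_rev, inv_inv] at this)
        obtain ⟨z, hz⟩ := two_lines (x⁻¹ * g * x) (y⁻¹ * x) ha hc2 (by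
          have : (y⁻¹ * x) * (x⁻¹ * g * x) * (y⁻¹ * x)⁻¹ = y⁻¹ * g * y := by group
          rwa [this])
        apply fix_BB hF g p hg hp (x * z)
        have : (x * z)⁻¹ * g * (x * z) = z⁻¹ * (x⁻¹ * g * x) * z := by group
        rwa [this]
  exact Finite.card_le_one_iff_subsingleton.2 this

theorem fix_BB_zero [Fintype F] (hF : Fintype.card F = 4) (g : G3 F) (p : ℕ) (hg : orderOf g = p)
    (hp : ¬ p ∣ 12) : Nat.card (fixedBy (G3 F ⧸ BB F) g) = 0 := by
  haveI : IsEmpty (fixedBy (G3 F ⧸ BB F) g) := by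
    constructor
    rintro ⟨a, ha⟩
    induction a using QuotientGroup.induction_on with
    | H x =>
      rw [fixed_iff] at ha
      exact fix_BB hF g p hg hp x ha
  exact Nat.card_of_isEmpty

/-- **box O2 of S5917**: the numbers of orbits of the elements of order 5 and 7 -/
theorem orb57 [Fintype F] (hF : Fintype.card F = 4)
    (hcos : Nat.card (G3 F ⧸ BB F) = 105 ∧ Nat.card (G3 F ⧸ PP F) = 21 ∧ Nat.card (G3 F ⧸ LL F) = 21)
    (g : G3 F) :
    (orderOf g = 5 → Module.finrank (ZMod 2) (fixF (BB F) g) = 21 ∧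
      Module.finrank (ZMod 2) (fixF (PP F) g) = 5 ∧ Module.finrank (ZMod 2) (fixF (LL F) g) = 5) ∧
    (orderOf g = 7 → Module.finrank (ZMod 2) (fixF (BB F) g) = 15 ∧
      Module.finrank (ZMod 2) (fixF (PP F) g) = 3 ∧ Module.finrank (ZMod 2) (fixF (LL F) g) = 3) := by
  obtain ⟨c1, c2, c3⟩ := hcos
  constructor
  · intro h
    have b := fix_BB_zero hF g 5 h (by norm_num)
    have q := fix_PP_le hF g 5 h (by norm_num)
    have l := fix_LL_le hF g 5 h (by norm_num)
    have ob := orb (BB F) g (by norm_num : Nat.Prime 5) h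
    have oq := orb (PP F) g (by norm_num : Nat.Prime 5) h
    have ol := orb (LL F) g (by norm_num : Nat.Prime 5) h
    rw [b, c1] at ob
    rw [c2] at oq
    rw [c3] at ol
    omega
  · intro h
    have b := fix_BB_zero hF g 7 h (by norm_num)
    have q := fix_PP_le hF g 7 h (by norm_num)
    have l := fix_LL_le hF g 7 h (by norm_num)
    have ob := orb (BB F) g (by norm_num : Nat.Prime 7) h
    have oq := orb (PP F) g (by norm_num : Nat.Prime 7) h
    have ol := orb (LL F) g (by norm_num : Nat.Prime 7) h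
    rw [b, c1] at ob
    rw [c2] at oq
    rw [c3] at ol
    omega

end Cfsg.Agent.H219.L34
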