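import Cfsg.Agent.H482.LF.StDef

/-!
# S5917, Steinberg branch: fixed functions on a set under an element of prime order (helper219)

`orb`: `p · dim (functions on X fixed by g) = |X| + (p - 1) · #Fix(g)` for `g` of prime order `p`.
-/

set_option autoImplicit false

set_option linter.style.haveILetI false

namespace Cfsg.Agent.H219.L34

open MulAction

/-- the invariant functions are the functions on the orbits -/
theorem finrank_orbits {G X : Type} [Group G] [MulAction G X] [Finite X] (g : G)
    (S : Submodule (ZMod 2) (X → ZMod 2)) (hS : ∀ c, c ∈ S ↔ ∀ x, c (g • x) = c x) :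
    Module.finrank (ZMod 2) S = Nat.card (orbitRel.Quotient (Subgroup.zpowers g) X) := by
  classical
  haveI : Fintype (orbitRel.Quotient (Subgroup.zpowers g) X) := by
    haveI : Finite (orbitRel.Quotient (Subgroup.zpowers g) X) := Quotient.finite _
    exact Fintype.ofFinite _
  rw [Nat.card_eq_fintype_card, ← Module.finrank_fintype_fun_eq_card (ZMod 2)]
  have hz : ∀ c ∈ S, ∀ (n : ℕ) x, c (g ^ n • x) = c x := by
    intro c hc n
    induction n with
    | zero => intro x; rw [pow_zero, one_smul]
    | succ n ih => intro x; rw [pow_succ, mul_smul, ih, (hS c).1 hc]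
  have hzz : ∀ c ∈ S, ∀ (n : ℤ) x, c (g ^ n • x) = c x := by
    intro c hc n x
    obtain ⟨m, rfl | rfl⟩ := n.eq_nat_or_neg
    · rw [zpow_natCast]; exact hz c hc m x
    · have := hz c hc m (g ^ (-(m : ℤ)) • x)
      rw [← mul_smul, ← zpow_natCast, ← zpow_add, add_neg_cancel, zpow_zero, one_smul] at this
      exact this.symm
  refine LinearEquiv.finrank_eq ?_
  refine
    { toFun := fun c => fun q => Quotient.liftOn' q c.1 (by
        rintro x y ⟨⟨h, n, rfl⟩, hh⟩
        have : g ^ n • y = x := hh
        rw [← this]
        exact hzz c.1 c.2 n y)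
      map_add' := ?_
      map_smul' := ?_
      invFun := fun f => ⟨fun x => f (Quotient.mk'' x), (hS _).2 ?_⟩
      left_inv := ?_
      right_inv := ?_ }
  · intro a b
    funext q
    induction q using Quotient.inductionOn'
    rfl
  · intro a b
    funext q
    induction q using Quotient.inductionOn'
    rfl
  · intro x
    congr 1
    apply Quotient.sound'
    exact ⟨⟨g, Subgroup.mem_zpowers g⟩, rfl⟩
  · intro c
    rfl
  · intro f
    funext q
    induction q using Quotient.inductionOn'
    rfl

theorem orb_general {G X : Type} [Group G] [MulAction G X] [Finite X] (g : G) {p : ℕ}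
    (hp : p.Prime) (hg : orderOf g = p)
    (S : Submodule (ZMod 2) (X → ZMod 2)) (hS : ∀ c, c ∈ S ↔ ∀ x, c (g • x) = c x) :
    p * Module.finrank (ZMod 2) S = Nat.card X + (p - 1) * Nat.card (fixedBy X g) := by
  classical
  rw [finrank_orbits g S hS]
  haveI : Fintype X := Fintype.ofFinite X
  haveI : Finite (Subgroup.zpowers g) := by
    apply Nat.finite_of_card_ne_zero
    rw [Nat.card_zpowers, hg]
    exact hp.ne_zero
  haveI : Fintype (Subgroup.zpowers g) := Fintype.ofFinite _
  haveI : Fintype (orbitRel.Quotient (Subgroup.zpowers g) X) := by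
    haveI : Finite (orbitRel.Quotient (Subgroup.zpowers g) X) := Quotient.finite _
    exact Fintype.ofFinite _
  haveI : ∀ a : Subgroup.zpowers g, Fintype (fixedBy X a) := fun a => Fintype.ofFinite _
  have hB := sum_card_fixedBy_eq_card_orbits_mul_card_group (Subgroup.zpowers g) X
  have hc : Fintype.card (Subgroup.zpowers g) = p := by
    rw [← Nat.card_eq_fintype_card, Nat.card_zpowers, hg]
  have h1 : ∀ a : Subgroup.zpowers g, a ≠ 1 → Fintype.card (fixedBy X a) = Nat.card (fixedBy X g) := by
    intro a ha
    rw [← Nat.card_eq_fintype_card]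
    have ho : orderOf (a : G) = p := by
      have h2 : orderOf (a : G) ∣ p := by
        rw [← hg]
        obtain ⟨n, hn⟩ := a.2
        have : (a : G) ^ orderOf g = 1 := by
          rw [← hn]
          show (g ^ n) ^ orderOf g = 1
          rw [← zpow_natCast, ← zpow_mul, mul_comm, zpow_mul, zpow_natCast, pow_orderOf_eq_one, one_zpow]
        exact orderOf_dvd_of_pow_eq_one this
      rcases (Nat.dvd_prime hp).1 h2 with h3 | h3
      · exact absurd (Subtype.ext (orderOf_eq_one_iff.1 h3)) ha
      · exact h3
    have hz : Subgroup.zpowers (a : G) = Subgroup.zpowers g := by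
      apply Subgroup.eq_of_le_of_card_ge
      · rw [Subgroup.zpowers_le]; exact a.2
      · rw [Nat.card_zpowers, Nat.card_zpowers, ho, hg]
    have hga : g ∈ Subgroup.zpowers (a : G) := by rw [hz]; exact Subgroup.mem_zpowers g
    obtain ⟨n, hn⟩ := hga
    obtain ⟨m, hm⟩ := a.2
    have hset : (fixedBy X a : Set X) = fixedBy X g := by
      ext x
      constructor
      · intro hx
        have hx' : (a : G) • x = x := hx
        show g • x = x
        rw [← hn]
        show (a : G) ^ n • x = x
        exact mem_stabilizer_iff.1 ((stabilizer G x).zpow_mem (mem_stabilizer_iff.2 hx') n)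
      · intro hx
        have hx' : g • x = x := hx
        show (a : G) • x = x
        rw [← hm]
        show g ^ m • x = x
        exact mem_stabilizer_iff.1 ((stabilizer G x).zpow_mem (mem_stabilizer_iff.2 hx') m)
    rw [hset]
  have h2 : ∑ a : Subgroup.zpowers g, Fintype.card (fixedBy X a)
      = Nat.card X + (p - 1) * Nat.card (fixedBy X g) := by
    rw [← Finset.add_sum_erase _ _ (Finset.mem_univ (1 : Subgroup.zpowers g))]
    congr 1
    · rw [← Nat.card_eq_fintype_card]
      have : (fixedBy X (1 : Subgroup.zpowers g) : Set X) = Set.univ := by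
        ext x
        simp
      rw [this, Nat.card_coe_set_eq, Set.ncard_univ]
    · rw [Finset.sum_congr rfl (fun a ha => h1 a (Finset.ne_of_mem_erase ha)), Finset.sum_const,
        Finset.card_erase_of_mem (Finset.mem_univ _), Finset.card_univ, hc, smul_eq_mul]
  rw [← h2, hB, hc, Nat.card_eq_fintype_card, mul_comm]

open Cfsg.Agent.H482.LF Cfsg.Agent.H691.L34 in
/-- **orbit lemma**: `p · dim fixF H g = |G/H| + (p - 1) · #Fix(g)` -/
theorem orb {F : Type} [Field F] [Finite F] (H : Subgroup (G3 F)) (g : G3 F) {p : ℕ}
    (hp : p.Prime) (hg : orderOf g = p) :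
    p * Module.finrank (ZMod 2) (fixF H g)
      = Nat.card (G3 F ⧸ H) + (p - 1) * Nat.card (fixedBy (G3 F ⧸ H) g) :=
  orb_general g hp hg (fixF H g) (fun _ => Iff.rfl)

end Cfsg.Agent.H219.L34
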